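import Mathlib
import Cfsg.Agent.FG.H94Breadth
import Cfsg.Agent.FG.H92Basic
import Cfsg.Agent.GT.Supersolvable2
import Cfsg.Agent.GT.Fitting
import Cfsg.Agent.GT.CoprimeProd

/-! Solvable groups whose primary elements have square-free class sizes. -/

set_option autoImplicit false

namespace Cfsg.Agent.SqP

open Cfsg Subgroup Cfsg.Agent.GT Cfsg.Agent.FG.CI Cfsg.Agent.FG.Breadth
open scoped commutatorElement

universe u

/-- primary elements have square-free class size -/
def Hy (G : Type u) [Group G] : Prop :=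
  ∀ x : G, (∃ (r : ℕ) (k : ℕ), r.Prime ∧ orderOf x = r ^ k) → Squarefree (cidx x)

variable {G : Type u} [Group G] [Finite G]

theorem lift {H : Type*} [Group H] [Finite H] (f : G →* H) (hf : Function.Surjective f) {p : ℕ}
    (hp : p.Prime) {y : H} (hy : ∃ k, orderOf y = p ^ k) :
    ∃ x, f x = y ∧ ∃ k, orderOf x = p ^ k := by
  have := Fact.mk hp
  obtain ⟨P⟩ : Nonempty (Sylow p G) := inferInstance
  obtain ⟨g, hg⟩ := exists_conj_mem_sylow (P.mapSurjective hf) hy
  rw [Sylow.coe_mapSurjective] at hg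
  obtain ⟨x, hx, e⟩ := hg
  obtain ⟨g, rfl⟩ := hf g
  obtain ⟨k, hk⟩ := orderOf_of_mem P.isPGroup' hx
  refine ⟨g⁻¹ * x * g, by simp [e, mul_assoc], k, ?_⟩
  rw [← hk]
  exact ((MulAut.conj g⁻¹).orderOf_eq x).symm ▸ by simp

theorem Hy.quot (h : Hy G) (N : Subgroup G) [N.Normal] : Hy (G ⧸ N) := by
  rintro y ⟨r, k, hr, hk⟩
  obtain ⟨x, rfl, j, hj⟩ := lift (QuotientGroup.mk' N) (QuotientGroup.mk'_surjective N) hr ⟨k, hk⟩
  exact (h x ⟨r, j, hr, hj⟩).squarefree_of_dvd (cidx_mk_dvd N x)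

theorem Hy.sub (h : Hy G) (N : Subgroup G) [N.Normal] : Hy N := by
  rintro y ⟨r, k, hr, hk⟩
  exact (h y ⟨r, k, hr, by rw [orderOf_coe, hk]⟩).squarefree_of_dvd (cidx_coe_dvd N y)

theorem dvd_of_sqf {p n m : ℕ} (hp : p.Prime) (h : Squarefree m) (hd : p ^ n ∣ m) : p ^ n ∣ p := by
  have h1 := h.squarefree_of_dvd hd
  rcases n with _ | n
  · simp
  · rw [show n + 1 = 1 from ((Nat.squarefree_pow_iff hp.ne_one n.succ_ne_zero).1 h1).2, pow_one]

theorem Hy.cyc (h : Hy G) {N : Subgroup G} [N.Normal] {p : ℕ} (hp : p.Prime) (hN : IsMinNormal N)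
    (hE : IsElementaryAbelian p N) (ih : IsSupersolvable (G ⧸ N)) : IsCyclic N := by
  have := Fact.mk hp
  have hNp := CopAct.isPGroup_of_isElementaryAbelian hE
  have hNC : N ≤ centralizer (N : Set G) := PG.isMulCommutative_iff_le_centralizer.1 hE.1
  by_cases hc : centralizer (N : Set G) = ⊤
  · obtain ⟨⟨x, hx⟩, hx1⟩ := Subgroup.ne_bot_iff_exists_ne_one.1 hN.ne_bot
    have hx' : x ∈ center G := mem_center_iff.2 fun g =>
      ((mem_centralizer_iff.1 (hc ▸ mem_top g : g ∈ centralizer (N : Set G))) x hx).symm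
    have : (zpowers x).Normal := FG.H92.normal_of_le_center (zpowers_le.2 hx')
    rcases hN.eq_bot_or_eq (zpowers_le.2 hx) with h1 | h1
    · exact absurd (Subtype.ext (zpowers_eq_bot.1 h1)) hx1
    · rw [← h1]; infer_instance
  set C := centralizer (N : Set G) with hC
  have hs : IsSupersolvable (G ⧸ C) :=
    SS.of_surjective ih (QuotientGroup.map N C (MonoidHom.id G) hNC) fun y => by
      obtain ⟨y, rfl⟩ := QuotientGroup.mk_surjective y
      exact ⟨y, rfl⟩
  have : Nontrivial (G ⧸ C) := QuotientGroup.nontrivial_iff.2 hc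
  obtain ⟨L, hL, hq⟩ := SS.exists_normal_card_prime hs
  have := Fact.mk hq
  obtain ⟨y, hy⟩ := (Subgroup.isCyclic_iff_exists_zpowers_eq_top L).1 (isCyclic_of_prime_card rfl)
  have hyo : orderOf y = Nat.card L := by rw [← Nat.card_zpowers, hy]
  obtain ⟨x, rfl, j, hj⟩ := lift (QuotientGroup.mk' C) (QuotientGroup.mk'_surjective C) hq
    ⟨1, by rw [hyo, pow_one]⟩
  have hx : x ∉ C := fun e => by
    rw [show QuotientGroup.mk' C x = 1 from (QuotientGroup.eq_one_iff x).2 e, orderOf_one] at hyo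
    exact hq.ne_one hyo.symm
  let M := L.comap (QuotientGroup.mk' C)
  have hM : N ⊓ centralizer {x} ≤ N ⊓ centralizer (M : Set G) := by
    rintro v ⟨hv, hvx⟩
    refine ⟨hv, le_centralizer_iff.1 (fun m hm => ?_) (mem_zpowers v)⟩
    have hm' : QuotientGroup.mk' C m ∈ zpowers (QuotientGroup.mk' C x) := hy ▸ hm
    obtain ⟨n, hn⟩ := mem_zpowers_iff.1 hm'
    rw [← map_zpow, QuotientGroup.mk'_apply, QuotientGroup.mk'_apply, QuotientGroup.eq] at hn
    have e : m = x ^ n * ((x ^ n)⁻¹ * m) := by group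
    rw [e]
    refine mul_mem (zpow_mem ?_ n) (centralizer_le (zpowers_le.2 hv) hn)
    rw [zpowers_eq_closure, centralizer_closure]
    exact mem_cent_symm.1 hvx
  have hb : N ⊓ centralizer (M : Set G) = ⊥ := by
    rcases hN.eq_bot_or_eq (inf_le_left : N ⊓ centralizer (M : Set G) ≤ N) with h1 | h1
    · exact h1
    · refine absurd (le_centralizer_iff.1 (h1.ge.trans inf_le_right) (show x ∈ M from ?_)) hx
      rw [mem_comap, ← hy]; exact mem_zpowers _
  obtain ⟨n, hn⟩ := hNp.exists_card_eq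
  have h1 := relIndex_cent_dvd N x
  rw [← inf_relIndex_left, eq_bot_iff.2 (hM.trans hb.le), relIndex_bot_left, hn] at h1
  exact isCyclic_of_card_dvd_prime (hn ▸ dvd_of_sqf hp (h x ⟨_, j, hq, hj⟩) h1)

theorem Hy.ss [Group.IsSolvable G] (h : Hy G) : IsSupersolvable G := by
  revert h
  refine solvable_induction (P := fun G _ _ _ => Hy G → IsSupersolvable G)
    (fun G _ _ _ _ _ => SS.of_subsingleton) ?_ G
  intro G _ _ _ N _ p hp hN hE ih h
  have := h.cyc hp hN hE (ih (h.quot N))
  exact SS.of_cyclic_normal N (ih (h.quot N))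

theorem Hy.pow_mem [Group.IsSolvable G] (h : Hy G) {q : ℕ} (hq : q.Prime) (x : G)
    (hx : ∃ k, orderOf x = q ^ k) : x ^ q ∈ fittingSubgroup G := by
  revert h x
  refine solvable_induction (P := fun G _ _ _ => Hy G → ∀ x : G, (∃ k, orderOf x = q ^ k) →
    x ^ q ∈ fittingSubgroup G) (fun G _ _ _ _ _ x _ => ?_) ?_ G
  · rw [Subsingleton.elim (x ^ q) 1]; exact one_mem _
  rintro G _ _ _ N _ p hp hN hE ih h x ⟨k, hk⟩
  have := Fact.mk hp
  have hNp := CopAct.isPGroup_of_isElementaryAbelian hE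
  obtain ⟨v, hv⟩ := (Subgroup.isCyclic_iff_exists_zpowers_eq_top N).1 (h.cyc hp hN hE (h.quot N).ss)
  set C := centralizer (N : Set G) with hC
  have hi : Squarefree C.index := by
    obtain ⟨j, hj⟩ := orderOf_of_mem hNp (hv ▸ mem_zpowers v : v ∈ N)
    have := h v ⟨p, j, hp, hj⟩
    rwa [cidx, ← centralizer_closure, ← zpowers_eq_closure, hv] at this
  have h1 : x ^ q ∈ C := by
    obtain ⟨j, -, hj⟩ := (Nat.dvd_prime_pow hq).1 (hk ▸ orderOf_map_dvd (QuotientGroup.mk' C) x)
    have := dvd_of_sqf hq hi (hj ▸ orderOf_dvd_natCard (QuotientGroup.mk' C x))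
    rw [← hj, orderOf_dvd_iff_pow_eq_one, ← map_pow] at this
    exact (QuotientGroup.eq_one_iff _).1 this
  have h2 : QuotientGroup.mk' N (x ^ q) ∈ fittingSubgroup (G ⧸ N) := by
    obtain ⟨j, -, hj⟩ := (Nat.dvd_prime_pow hq).1 (hk ▸ orderOf_map_dvd (QuotientGroup.mk' N) x)
    rw [map_pow]
    exact ih (h.quot N) _ ⟨j, hj⟩
  let M := (fittingSubgroup (G ⧸ N)).comap (QuotientGroup.mk' N) ⊓ C
  let f : M →* fittingSubgroup (G ⧸ N) :=
    ((QuotientGroup.mk' N).comp M.subtype).codRestrict _ fun m => m.2.1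
  have : Group.IsNilpotent M := Subgroup.isNilpotent_of_ker_le_center f fun m hm =>
    mem_center_iff.2 fun g => Subtype.ext ((mem_centralizer_iff.1 g.2.2) m
      ((QuotientGroup.eq_one_iff _).1 (congrArg Subtype.val (MonoidHom.mem_ker.1 hm)))).symm
  exact le_fitting M ⟨h2, h1⟩

theorem Hy.sqf_nil [Group.IsNilpotent G] (h : Hy G) : Squarefree (Nat.card (commutator G)) := by
  rw [Nat.squarefree_iff_prime_squarefree]
  intro p hp hd
  have := Fact.mk hp
  let π := QuotientGroup.mk' (pPrimeCore p G)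
  have hs : Function.Surjective π := QuotientGroup.mk'_surjective _
  have hP : IsPGroup p (G ⧸ pPrimeCore p G) := by
    have h1 : (pCore p G).map π = ⊤ := by
      have := congrArg (Subgroup.map π) (pCore_sup_pPrimeCore (G := G) p)
      rwa [Subgroup.map_sup, (Subgroup.map_eq_bot_iff _).2 (QuotientGroup.ker_mk' _).ge, sup_bot_eq,
        map_top_of_surjective π hs] at this
    have h2 := (isPGroup_pCore (G := G) p).map π
    rw [h1] at h2
    exact h2.of_equiv topEquiv
  have h1 := knoche hP fun x => by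
    obtain ⟨n, hn⟩ := hP.index (centralizer {x})
    obtain ⟨k, hk⟩ := IsPGroup.iff_orderOf.1 hP x
    have := h.quot (pPrimeCore p G) x ⟨p, k, hp, hk⟩
    rw [cidx, hn] at this ⊢
    exact dvd_of_sqf hp this dvd_rfl
  rw [_root_.commutator_def, ← map_top_of_surjective π hs,
    ← Subgroup.map_commutator, ← relIndex_ker, QuotientGroup.ker_mk', ← _root_.commutator_def] at h1
  rw [← PG.relIndex_mul_card_inf (pPrimeCore p G)] at hd
  have h2 : (p * p).Coprime (Nat.card (pPrimeCore p G ⊓ commutator G : Subgroup G)) := by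
    have := ((coprime_card_pPrimeCore (G := G) p).coprime_dvd_left
      (card_dvd_of_le (inf_le_left (b := commutator G)))).symm
    exact this.mul_left this
  have h3 := Nat.le_of_dvd hp.pos ((h2.dvd_of_dvd_mul_right hd).trans h1)
  nlinarith [hp.two_le]

theorem Hy.main [Group.IsSolvable G] (h : Hy G) :
    IsSupersolvable G ∧ derivedSeries G 3 = ⊥ ∧
    (∀ _h : (fittingSubgroup G).Normal, IsMulCommutative (G ⧸ fittingSubgroup G) ∧
      Squarefree (Monoid.exponent (G ⧸ fittingSubgroup G))) ∧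
    Squarefree (Nat.card (commutator ↥(fittingSubgroup G))) := by
  have hss := h.ss
  have := SS.isNilpotent_commutator hss
  have hle : commutator G ≤ fittingSubgroup G := le_fitting _
  have hsq := (h.sub (fittingSubgroup G)).sqf_nil
  refine ⟨hss, ?_, fun _ => ⟨Normal.quotient_commutative_iff_commutator_le.2 hle, ?_⟩, hsq⟩
  · have := IsZGroup.of_squarefree hsq
    have hc : IsCyclic (commutator ↥(fittingSubgroup G)) := inferInstance
    obtain ⟨v, hv⟩ := (Subgroup.isCyclic_iff_exists_zpowers_eq_top _).1 hc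
    have h2 : derivedSeries G 2 ≤ zpowers (v : G) := by
      have := congrArg (Subgroup.map (fittingSubgroup G).subtype) hv
      rw [MonoidHom.map_zpowers, map_subtype_commutator] at this
      exact (commutator_mono hle hle).trans this.ge
    refine eq_bot_iff.2 ((commutator_mono h2 h2).trans (commutator_le.2 fun a ha b hb => ?_))
    exact mem_bot.2 (commutatorElement_eq_one_iff_commute.2 (commute_of_mem_zpowers ha hb))
  · rw [Nat.squarefree_iff_prime_squarefree]
    intro q hq hd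
    obtain ⟨y, hy⟩ := hq.exists_orderOf_eq_pow_factorization_exponent (G ⧸ fittingSubgroup G)
    obtain ⟨x, rfl, hx⟩ := lift (QuotientGroup.mk' _) (QuotientGroup.mk'_surjective _) hq ⟨_, hy⟩
    have h1 : QuotientGroup.mk' (fittingSubgroup G) x ^ q = 1 := by
      rw [← map_pow]; exact (QuotientGroup.eq_one_iff _).2 (h.pow_mem hq x hx)
    rw [← orderOf_dvd_iff_pow_eq_one, hy] at h1
    rw [← sq, hq.pow_dvd_iff_le_factorization Monoid.exponent_ne_zero_of_finite] at hd
    have h3 := Nat.le_of_dvd hq.pos ((pow_dvd_pow q hd).trans h1)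
    nlinarith [hq.two_le]

end Cfsg.Agent.SqP
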